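import Cfsg.Agent.H318.RepTwE
import Cfsg.Agent.H284.StdRed
import Cfsg.Agent.H284.SepOrd
import Cfsg.Agent.H340.OddLie
import Cfsg.Agent.H12.AltComp
import Cfsg.Agent.H829.ExcComp
import Cfsg.Agent.OddHalf.Known
import Cfsg.Agent.OrdDiv.Table
import Cfsg.Agent.CTwoTab.Monster

/-!
# Simple groups with a component `A` in the centralizer of an involution `z ∈ A`, `A / Z(A) ≅ ²E₆(2)` (helper318)
-/

set_option autoImplicit false
set_option linter.unusedSectionVars false

namespace Cfsg.Agent.H318.StdTwE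

open Cfsg Cfsg.Lie Subgroup Cfsg.Agent.OddHalf Cfsg.Agent.OrdDiv
open Cfsg.Agent.SignalizersComponents Cfsg.Agent.SignalizersComponents.QsBasic

universe u v w

/-- the order of `²E₆(2)` -/
abbrev NN : ℕ := 76532479683774853939200

theorem chk_NN : H284.SepOrd.chk [] NN = true := by decide +kernel

/-- the situation: `A` is a component of `C(z)`, `z ∈ A` an involution, `A/Z(A) ≅ ²E₆(2)` -/
structure Sit (X : Type u) [Group X] (z : X) (A : Subgroup X) (K : Type v) [Field K] : Prop where
  hz : orderOf z = 2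
  hzA : z ∈ A
  comp : IsComponentOf A (centralizer ({z} : Set X))
  e : Nonempty (↥A ⧸ center ↥A ≃* ↥(twistedE6 K 2))

variable {X : Type u} [Group X] {z : X} {A : Subgroup X} {K : Type v} [Field K] [Fintype K]

theorem card_tw (hK : Fintype.card K = 4) : Nat.card ↥(twistedE6 K 2) = NN := by
  obtain ⟨-, φ, F⟩ := TwoESix.LeviA.exists_four K hK
  exact TwoESix.LongCard.card_E F

theorem Sit.card_quot (S : Sit X z A K) (hK : Fintype.card K = 4) : Nat.card (↥A ⧸ center ↥A) = NN := by
  obtain ⟨e⟩ := S.e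
  rw [Nat.card_congr e.toEquiv, card_tw hK]

theorem Sit.z_center (S : Sit X z A K) : (⟨z, S.hzA⟩ : ↥A) ∈ center ↥A := by
  rw [mem_center_iff]
  intro a
  apply Subtype.ext
  exact mem_centralizer_singleton_iff.1 (S.comp.1 a.2)

theorem Sit.z_ne (S : Sit X z A K) : z ≠ 1 := by
  intro h
  have := S.hz
  rw [h, orderOf_one] at this
  exact absurd this (by norm_num)

theorem Sit.quasi (S : Sit X z A K) : IsQuasisimple ↥A :=
  QsBasic.isQuasisimple_of_mulEquiv (subgroupOfEquivOfLe S.comp.1) S.comp.2.2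

theorem Sit.dvd [Finite X] (S : Sit X z A K) (hK : Fintype.card K = 4) : NN ∣ Nat.card X := by
  rw [← S.card_quot hK]
  exact (Subgroup.card_quotient_dvd_card _).trans (Subgroup.card_subgroup_dvd_card _)

theorem fixed_eq (z : X) : fixedSubgroup (MulAut.conj z : MulAut X) = centralizer ({z} : Set X) := by
  ext x
  rw [mem_centralizer_singleton_iff]
  show z * x * z⁻¹ = x ↔ _
  rw [mul_inv_eq_iff_eq_mul]
  exact eq_comm

theorem conj_sq (hz : orderOf z = 2) : (MulAut.conj z : MulAut X) * MulAut.conj z = 1 := by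
  have h : z * z = 1 := by rw [← pow_two, ← hz, pow_orderOf_eq_one]
  rw [← map_mul, h, map_one]

/-! ### alternating groups -/

theorem Sit.not_alt [Finite X] (S : Sit X z A K) (hK : Fintype.card K = 4) (hc : center X = ⊥) : ¬ IsAlternating X := by
  rintro ⟨n, hn, ⟨e⟩⟩
  have h7 : 7 ≤ n := by
    by_contra hlt
    have h1 := S.dvd hK
    have h2 : Nat.card X ≤ 720 := by
      rw [Nat.card_congr e.toEquiv]
      have h3 : Nat.card ↥(alternatingGroup (Fin n)) ≤ Nat.card (Equiv.Perm (Fin n)) := Subgroup.card_le_card_group _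
      rw [Nat.card_perm, Nat.card_fin] at h3
      have h4 : n.factorial ≤ Nat.factorial 6 := Nat.factorial_le (by omega)
      exact h3.trans (h4.trans (by decide))
    have h3 := Nat.le_of_dvd Nat.card_pos h1
    exact absurd (h3.trans h2) (by norm_num)
  have hz1 : (MulAut.conj z : MulAut X) ≠ 1 := by
    intro h
    apply S.z_ne
    rw [← mem_bot, ← hc, mem_center_iff]
    intro g
    have h1 : z * g * z⁻¹ = g := DFunLike.congr_fun h g
    rw [mul_inv_eq_iff_eq_mul] at h1
    exact h1.symm
  let f : ↥(centralizer ({z} : Set X)) ≃* ↥(fixedSubgroup (MulAut.conj z : MulAut X)) :=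
    MulEquiv.subgroupCongr (fixed_eq z).symm
  have hA : IsComponent ((A.subgroupOf (centralizer ({z} : Set X))).map f.toMonoidHom) :=
    Components.isComponent_map_equiv f S.comp.2
  obtain ⟨k, -, hk, ⟨g⟩⟩ := H12.AltComp.comp_fixed h7 e _ (conj_sq S.hz) hz1 _ hA
  have e1 : ↥A ≃* ↥(alternatingGroup (Fin (n - 2 * k))) :=
    ((subgroupOfEquivOfLe S.comp.1).symm.trans ((A.subgroupOf (centralizer ({z} : Set X))).equivMapOfInjective
      f.toMonoidHom f.injective)).trans g
  have h5 : center ↥(alternatingGroup (Fin (n - 2 * k))) = ⊥ := by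
    have hs : IsSimpleGroup ↥(alternatingGroup (Fin (n - 2 * k))) :=
      alternatingGroup.isSimpleGroup (by rw [Nat.card_fin]; omega)
    rcases (inferInstance : (center ↥(alternatingGroup (Fin (n - 2 * k)))).Normal).eq_bot_or_eq_top with h | h
    · exact h
    · exfalso
      have h6 := S.quasi
      have h7 := QsBasic.isQuasisimple_of_mulEquiv e1 h6
      have h8 := h7.2.toNontrivial
      obtain ⟨x, hx⟩ := exists_ne (1 : ↥(alternatingGroup (Fin (n - 2 * k))) ⧸ center ↥(alternatingGroup (Fin (n - 2 * k))))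
      obtain ⟨y, rfl⟩ := QuotientGroup.mk'_surjective _ x
      apply hx
      rw [QuotientGroup.mk'_apply, QuotientGroup.eq_one_iff, h]
      exact mem_top y
  have h6 : (⟨z, S.hzA⟩ : ↥A) ∈ center ↥A := S.z_center
  have h7 : e1 ⟨z, S.hzA⟩ ∈ center ↥(alternatingGroup (Fin (n - 2 * k))) := by
    rw [mem_center_iff]
    intro x
    obtain ⟨y, rfl⟩ := e1.surjective x
    rw [← map_mul, ← map_mul, mem_center_iff.1 h6 y]
  rw [h5, mem_bot] at h7
  have h8 : (⟨z, S.hzA⟩ : ↥A) = 1 := e1.injective (h7.trans (map_one e1).symm)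
  exact S.z_ne (congrArg Subtype.val h8)

/-! ### characteristic 2 -/

theorem Sit.not_two [Finite X] [IsSimpleGroup X] (S : Sit X z A K) (hna : ¬ IsMulCommutative X) : ¬ IsChevSimple 2 X := by
  intro h
  have hc := CpAut.center_eq_bot_of_simple hna
  have hz1 : (MulAut.conj z : MulAut X) ≠ 1 := by
    intro h
    apply S.z_ne
    rw [← mem_bot, ← hc, mem_center_iff]
    intro g
    have h1 : z * g * z⁻¹ = g := DFunLike.congr_fun h g
    rw [mul_inv_eq_iff_eq_mul] at h1
    exact h1.symm
  let f : ↥(centralizer ({z} : Set X)) ≃* ↥(fixedSubgroup (MulAut.conj z : MulAut X)) :=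
    MulEquiv.subgroupCongr (fixed_eq z).symm
  exact H829.ExcComp.no_comp_inner hna h (by rw [pow_two]; exact conj_sq S.hz) hz1 (Components.isComponent_map_equiv f S.comp.2)

/-! ### odd characteristic -/

theorem not_lie (hK : Fintype.card K = 4) {p : ℕ} (hp : p.Prime) (hp2 : p ≠ 2) {B : Type u} [Group B]
    (e : Nonempty (B ≃* ↥(twistedE6 K 2))) : ¬ IsLieTypeChar p B := by
  intro h
  obtain ⟨e⟩ := e
  obtain ⟨Y, f, hY⟩ := H284.SepOrd.real_of_lie OrdDiv.table hp h
  rw [Nat.card_congr e.toEquiv, card_tw hK] at hY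
  exact H284.SepOrd.chk_real hY chk_NN hp2 (by simp)

theorem Sit.not_classical (S : Sit X z A K) (hK : Fintype.card K = 4) {p : ℕ} (hp : p.Prime) (hp2 : p ≠ 2) :
    ¬ H340.IsClassicalChar p X := by
  intro h
  have h1 := H340.cf_lie_of_classical hp hp2 h (MulAut.conj z) (conj_sq S.hz)
  let f : ↥(centralizer ({z} : Set X)) ≃* ↥(fixedSubgroup (MulAut.conj z : MulAut X)) :=
    MulEquiv.subgroupCongr (fixed_eq z).symm
  have h2 := h1.congr f.symm
  have hq := S.comp.2.2
  have h3 := h2.component S.comp.2.1 hq.2 hq.1.commutator_eq_top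
  refine not_lie hK hp hp2 ?_ h3
  obtain ⟨e⟩ := S.e
  exact ⟨(CTwoTab.quoEquiv (subgroupOfEquivOfLe S.comp.1)).trans e⟩

/-- no faithful linear representation of degree less than 1024 -/
theorem Sit.degree [Finite X] (S : Sit X z A K) (hK : Fintype.card K = 4) {E : Type w} [Field E] (hE : (2 : E) ≠ 0)
    {ι : Type*} [Fintype ι] [DecidableEq ι] (ρ : X →* Matrix.GeneralLinearGroup ι E) (hρ : Function.Injective ρ) :
    1024 ≤ Fintype.card ι := by
  obtain ⟨-, φ, F⟩ := TwoESix.LeviA.exists_four K hK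
  obtain ⟨e⟩ := S.e
  have hker : (e.toMonoidHom.comp (QuotientGroup.mk' (center ↥A))).ker = center ↥A := by
    rw [← MonoidHom.comap_ker, (MonoidHom.ker_eq_bot_iff _).2 e.injective, MonoidHom.comap_bot, QuotientGroup.ker_mk']
  exact RepTwE.degree F (π := e.toMonoidHom.comp (QuotientGroup.mk' (center ↥A)))
    (e.surjective.comp (QuotientGroup.mk'_surjective _)) (by rw [hker]) hE
    (ρ.comp A.subtype) (hρ.comp A.subtype_injective)

/-- exceptional groups of odd characteristic -/
theorem Sit.not_exc [Finite X] (S : Sit X z A K) (hK : Fintype.card K = 4) {p : ℕ} (hp : p.Prime) (hp2 : p ≠ 2) :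
    ¬ IsExceptionalChevChar p X ∧ ¬ IsTwistedE6D4Char p X ∧ ¬ IsoRee X := by
  have key : ∀ (D : ChevalleyDatum) (E : Type) (_ : Field E) (_ : (2 : E) ≠ 0) (M : Subgroup (GL D.Idx E))
      (_ : X ≃* ↥M), Fintype.card D.Idx < 1024 → False := by
    intro D E _ hE M e hlt
    have h1 := S.degree hK hE (M.subtype.comp e.toMonoidHom) (M.subtype_injective.comp e.injective)
    omega
  refine ⟨?_, ?_, ?_⟩
  · rintro ⟨E, i1, i2, i3, h⟩
    have hE : (2 : E) ≠ 0 := H340.two_ne_zero_of_charP hp hp2
    rcases h with ⟨-, ⟨e⟩⟩ | ⟨⟨e⟩⟩ | ⟨⟨e⟩⟩ | ⟨⟨e⟩⟩ | ⟨⟨e⟩⟩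
    · exact key _ E i1 hE _ e (by decide +kernel)
    · exact key _ E i1 hE _ e (by decide +kernel)
    · exact key _ E i1 hE _ e (by decide +kernel)
    · exact key _ E i1 hE _ e (by decide +kernel)
    · exact key _ E i1 hE _ e (by decide +kernel)
  · rintro ⟨E, i1, i2, i3, q, hq, h⟩
    have hE : (2 : E) ≠ 0 := H340.two_ne_zero_of_charP hp hp2
    rcases h with ⟨-, ⟨e⟩⟩ | ⟨-, ⟨e⟩⟩
    · exact key _ E i1 hE _ e (by decide +kernel)
    · exact key _ E i1 hE _ e (by decide +kernel)
  · rintro ⟨E, i1, i2, m, h1, h2, ⟨e⟩⟩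
    have h3 : CharP E 3 := by
      have hp := Fact.mk Nat.prime_three
      exact charP_of_card_eq_prime_pow h2
    have hE : (2 : E) ≠ 0 := H340.two_ne_zero_of_charP Nat.prime_three (by norm_num)
    exact key _ E i1 hE _ e (by decide +kernel)

/-! ### sporadic groups -/

theorem chk_dvd : ∀ x ∈ spor, x.1 ≠ .b → x.1 ≠ .m → ¬ NN ∣ x.2 := by decide +kernel

theorem Sit.spor_grp [Finite X] (S : Sit X z A K) (hK : Fintype.card K = 4) (g : Grp)
    (hg : g ∈ spor.map (fun x => x.1)) (hb : g ≠ .b) (hm : g ≠ .m) (hS : OrdDiv.Real g X) : False := by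
  obtain ⟨x, hx, rfl⟩ := List.mem_map.1 hg
  have h1 := S.dvd hK
  rw [OrdDiv.table.spor X x hx hS] at h1
  exact chk_dvd x hx hb hm h1

theorem Sit.not_monster (S : Sit X z A K) (hK : Fintype.card K = 4) : ¬ Spor.IsoM X := by
  intro h
  have h1 := (CTwoTab.Monster.compCard h z S.hz A S.comp).2
  rw [S.card_quot hK] at h1
  exact absurd h1 (by norm_num)

theorem Sit.spor [Finite X] (S : Sit X z A K) (hK : Fintype.card K = 4) (hs : IsSporadicGroup X) : Spor.IsoB X := by
  rcases hs with hs | hs | hs | hs | hs | hs | hs | hs | hs | hs | hs | hs | hs | hs | hs | hs | hs | hs | hs | hs | hs |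
    hs | hs | hs | hs | hs
  · exact (S.spor_grp hK .m11 (by decide) (by decide) (by decide) hs).elim
  · exact (S.spor_grp hK .m12 (by decide) (by decide) (by decide) hs).elim
  · exact (S.spor_grp hK .m22 (by decide) (by decide) (by decide) hs).elim
  · exact (S.spor_grp hK .m23 (by decide) (by decide) (by decide) hs).elim
  · exact (S.spor_grp hK .m24 (by decide) (by decide) (by decide) hs).elim
  · exact (S.spor_grp hK .j1 (by decide) (by decide) (by decide) hs).elim
  · exact (S.spor_grp hK .j2 (by decide) (by decide) (by decide) hs).elim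
  · exact (S.spor_grp hK .j3 (by decide) (by decide) (by decide) hs).elim
  · exact (S.spor_grp hK .j4 (by decide) (by decide) (by decide) hs).elim
  · exact (S.spor_grp hK .co1 (by decide) (by decide) (by decide) hs).elim
  · exact (S.spor_grp hK .co2 (by decide) (by decide) (by decide) hs).elim
  · exact (S.spor_grp hK .co3 (by decide) (by decide) (by decide) hs).elim
  · exact (S.spor_grp hK .mcl (by decide) (by decide) (by decide) hs).elim
  · exact (S.spor_grp hK .hs (by decide) (by decide) (by decide) hs).elim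
  · exact (S.spor_grp hK .suz (by decide) (by decide) (by decide) hs).elim
  · exact (S.spor_grp hK .he (by decide) (by decide) (by decide) hs).elim
  · exact (S.spor_grp hK .ru (by decide) (by decide) (by decide) hs).elim
  · exact (S.spor_grp hK .on (by decide) (by decide) (by decide) hs).elim
  · exact (S.spor_grp hK .ly (by decide) (by decide) (by decide) hs).elim
  · exact (S.spor_grp hK .fi22 (by decide) (by decide) (by decide) hs).elim
  · exact (S.spor_grp hK .fi23 (by decide) (by decide) (by decide) hs).elim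
  · exact (S.spor_grp hK .fi24 (by decide) (by decide) (by decide) hs).elim
  · exact (S.spor_grp hK .hn (by decide) (by decide) (by decide) hs).elim
  · exact (S.spor_grp hK .th (by decide) (by decide) (by decide) hs).elim
  · exact hs
  · exact (S.not_monster hK hs).elim

/-- **A known simple group in the situation is the Baby Monster.** -/
theorem Sit.isoB [Finite X] [IsSimpleGroup X] (S : Sit X z A K) (hK : Fintype.card K = 4) (hna : ¬ IsMulCommutative X)
    (hkn : IsKnownSimple' X) : Spor.IsoB X := by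
  rcases Known.classify hna hkn with h | ⟨p, hp, hp2, h⟩ | h | h
  · exact absurd h (S.not_alt hK (CpAut.center_eq_bot_of_simple hna))
  · exfalso
    have h1 := S.not_classical hK hp hp2
    obtain ⟨h2, h3, h4⟩ := S.not_exc hK hp hp2
    rcases h with h | h | h | h | h | h | h | h | ⟨rfl, -⟩ | ⟨rfl, -⟩ | ⟨rfl, h⟩
    · exact h1 (Or.inl h)
    · exact h1 (Or.inr (Or.inl h))
    · exact h1 (Or.inr (Or.inr (Or.inl h)))
    · exact h1 (Or.inr (Or.inr (Or.inr (Or.inl h))))
    · exact h1 (Or.inr (Or.inr (Or.inr (Or.inr (Or.inl h)))))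
    · exact h1 (Or.inr (Or.inr (Or.inr (Or.inr (Or.inr h)))))
    · exact h2 h
    · exact h3 h
    · exact hp2 rfl
    · exact hp2 rfl
    · exact h4 h
  · exfalso
    apply S.not_two hna
    rcases h with h | h
    · exact Or.inl h
    · exact Or.inr (Or.inl ⟨rfl, Or.inr (Or.inr h)⟩)
  · exact S.spor hK h

end Cfsg.Agent.H318.StdTwE
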